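import Cfsg.Agent.H549.PBA.Bin
import Cfsg.Agent.CharactersDeep.ModCongr
import Cfsg.Agent.Blocks.ExistsModular
import Cfsg.Agent.Blocks.Basic

/-!
# The symmetric group at elements with distinct cycle lengths, all powers of two (helper549, S4884, block D1)

* `perm_le_one` : every irreducible character of `Perm α` has value `0, 1, -1` at `w` if the cycle lengths of `w` (fixed
  points included) are distinct powers of two;
* `odd_of_ne` : an irreducible character of a finite group with an odd integral value at a `2`-element has odd degree.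
-/

set_option autoImplicit false
set_option linter.unusedSectionVars false

open Cfsg

namespace Cfsg.Agent.H549.PBA

open Cfsg.Agent.H614 Cfsg.Agent.Blocks Cfsg.Agent.Blocks.Local

universe u

/-- distinct powers of two form a fast decreasing list -/
theorem exists_fast_finset (S : Finset ℕ) :
    ∃ u : List ℕ, Fast u ∧ (u : Multiset ℕ) = S.val.map (fun k => 2 ^ k) := by
  induction S using Finset.induction_on_max with
  | empty => exact ⟨[], trivial, rfl⟩
  | insert a S ha ih =>
    obtain ⟨u, hu, hus⟩ := ih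
    refine ⟨2 ^ a :: u, ⟨?_, hu⟩, ?_⟩
    · have h1 : u.sum = ∑ k ∈ S, 2 ^ k := by
        rw [← Multiset.sum_coe, hus]
        rfl
      rw [h1]
      calc ∑ k ∈ S, 2 ^ k ≤ ∑ k ∈ Finset.range a, 2 ^ k :=
            Finset.sum_le_sum_of_subset fun k hk => Finset.mem_range.2 (ha k hk)
        _ < 2 ^ a := by
            have := Nat.geomSum_lt (m := 2) (n := a) (s := Finset.range a) le_rfl fun k hk => Finset.mem_range.1 hk
            exact this
    · have h2 : a ∉ S := fun h => lt_irrefl _ (ha a h)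
      rw [Finset.insert_val_of_notMem h2, Multiset.map_cons, ← hus, Multiset.cons_coe]

theorem exists_fast {s : Multiset ℕ} (h1 : s.Nodup) (h2 : ∀ x ∈ s, ∃ k, x = 2 ^ k) :
    ∃ u : List ℕ, Fast u ∧ (u : Multiset ℕ) = s := by
  have h3 : (s.toFinset.image (Nat.log 2)).val.map (fun k => 2 ^ k) = s := by
    have h4 : ∀ x ∈ s, 2 ^ Nat.log 2 x = x := by
      intro x hx
      obtain ⟨k, rfl⟩ := h2 x hx
      rw [Nat.log_pow (by norm_num)]
    rw [Finset.image_val_of_injOn]
    · rw [Multiset.toFinset_val, h1.dedup, Multiset.map_map]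
      conv_rhs => rw [← Multiset.map_id s]
      exact Multiset.map_congr rfl h4
    · intro x hx y hy hxy
      rw [← h4 x (Multiset.mem_toFinset.1 hx), ← h4 y (Multiset.mem_toFinset.1 hy)]
      exact congrArg _ hxy
  rw [← h3]
  exact exists_fast_finset _

section Perm

variable {α : Type u} [Fintype α] [DecidableEq α]

theorem perm_le_one_of_fast {χ : Equiv.Perm α → ℂ} (hχ : IsIrrCharacter (Equiv.Perm α) χ) {w : Equiv.Perm α}
    {u : List ℕ} (hu : Fast u) (hw : ty w = (u : Multiset ℕ)) : ∃ z : ℤ, χ w = (z : ℂ) ∧ |z| ≤ 1 := by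
  obtain ⟨β, hβ, hs, hβχ⟩ := irr_eq (α := α) (m := Fintype.card α) le_rfl hχ
  refine ⟨FM (ty w) β, by rw [hβχ]; rfl, ?_⟩
  rw [hw]
  refine abs_FM_le_one u hu ?_
  have h1 : (ty w).sum = Fintype.card α := w.partition.parts_sum
  rw [hs, ← h1, hw, Multiset.sum_coe]

/-- **Block D1** -/
theorem perm_le_one {χ : Equiv.Perm α → ℂ} (hχ : IsIrrCharacter (Equiv.Perm α) χ) {w : Equiv.Perm α}
    (h1 : (ty w).Nodup) (h2 : ∀ x ∈ ty w, ∃ k, x = 2 ^ k) : ∃ z : ℤ, χ w = (z : ℂ) ∧ |z| ≤ 1 := by
  obtain ⟨u, hu, hus⟩ := exists_fast h1 h2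
  exact perm_le_one_of_fast hχ hu hus.symm

end Perm

/-- an odd value at a `2`-element -/
theorem odd_of_value {G : Type u} [Group G] [Finite G] {χ : G → ℂ} (hχ : IsIrrCharacter G χ) {w : G}
    (hw : ∃ k : ℕ, orderOf w = 2 ^ k) {z : ℤ} (hz : χ w = (z : ℂ)) (hz2 : ¬ 2 ∣ z) : ¬ 2 ∣ charDegree χ := by
  obtain ⟨M, hM⟩ := ExistsModular.exists_isPModular Nat.prime_two
  have hMp := Local.isPrime_of_isPModular hM
  have h1 : IsPPart 2 w w := ⟨1, by rw [mul_one], Commute.one_right _, hw, by rw [orderOf_one]; decide⟩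
  have h2 := Cfsg.Agent.CharactersDeep.ModCongr.memLocalIdeal_character_sub hM hχ _ _ h1
  rw [inv_mul_cancel, hz, Blocks.Basic.irr_one_eq_charDegree hχ] at h2
  intro h3
  apply hz2
  have h4 : MemLocalIdeal M ((z : ℂ) - ((charDegree χ : ℤ) : ℂ)) := by exact_mod_cast h2
  rw [← Int.cast_sub, memLocalIdeal_intCast_iff hM] at h4
  have h5 : (2 : ℤ) ∣ (charDegree χ : ℤ) := by exact_mod_cast h3
  have h6 := dvd_add h4 h5
  rwa [sub_add_cancel] at h6

end Cfsg.Agent.H549.PBA
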