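import Cfsg.Agent.H549.PBA.Val

/-!
# Values of the characters of the symmetric groups at elements with rapidly decreasing cycle lengths (helper549, S4884)

`Fast u` : `u` is a list of positive numbers, each one larger than the sum of the following ones;
`abs_FM_le_one` : `|FM u β| ≤ 1`.
-/

set_option autoImplicit false
set_option linter.unusedSectionVars false

namespace Cfsg.Agent.H549.PBA

open Finset Cfsg.Agent.H614

variable {m : ℕ}

/-- every entry is larger than the sum of the following ones -/
def Fast : List ℕ → Prop
  | [] => True
  | r :: u => u.sum < r ∧ Fast u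

theorem Fast.tail {r : ℕ} {u : List ℕ} (h : Fast (r :: u)) : Fast u := h.2

/-- at most one rim hook of a length larger than half of the degree -/
theorem hook_unique {n r : ℕ} {β : Fin m → ℕ} (hβ : Function.Injective β)
    (hs : ∑ i, β i = n + ∑ i : Fin m, (i : ℕ)) (hr : n < 2 * r) {j k : Fin m} (hj : r ≤ β j) (hk : r ≤ β k)
    (hj' : Function.Injective (dn β j r)) (hk' : Function.Injective (dn β k r)) : j = k := by
  by_contra hjk
  have hk2 : dn β j r k = β k := dn_ne β r (Ne.symm hjk)
  have hinj : Function.Injective (dn (dn β j r) k r) := by
    intro a b hab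
    by_contra hne
    by_cases ha : a = k
    · subst ha
      have hb : b ≠ a := Ne.symm hne
      rw [dn_self, hk2, dn_ne _ _ hb] at hab
      by_cases hbj : b = j
      · subst hbj
        rw [dn_self] at hab
        exact hne (hβ (by omega))
      · rw [dn_ne _ _ hbj] at hab
        have h1 : dn β a r a = dn β a r b := by rw [dn_self, dn_ne _ _ hb]; exact hab
        exact hne (hk' h1)
    · rw [dn_ne _ _ ha] at hab
      by_cases hb : b = k
      · subst hb
        rw [dn_self, hk2] at hab
        by_cases haj : a = j
        · subst haj
          rw [dn_self] at hab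
          exact hne (hβ (by omega))
        · rw [dn_ne _ _ haj] at hab
          have h1 : dn β b r a = dn β b r b := by rw [dn_self, dn_ne _ _ ha]; exact hab
          exact hne (hk' h1)
      · rw [dn_ne _ _ hb] at hab
        exact hne (hj' hab)
  have h1 := sum_le_of_injective hinj
  have h2 := sum_dn β j hj
  have h3 := sum_dn (dn β j r) k (r := r) (by rw [hk2]; exact hk)
  omega

theorem abs_FM_le_one : ∀ (u : List ℕ), Fast u → ∀ {β : Fin m → ℕ},
    ∑ i, β i = u.sum + ∑ i : Fin m, (i : ℕ) → |FM (u : Multiset ℕ) β| ≤ 1 := by
  intro u
  induction u with
  | nil =>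
    intro _ β hs
    by_cases hβ : Function.Injective β
    · rw [List.sum_nil, zero_add] at hs
      show |FM 0 β| ≤ 1
      rw [FM_zero]
      unfold vac
      by_cases h0 : ∃ σ : Equiv.Perm (Fin m), β = fun i => ((σ i : Fin m) : ℕ)
      · obtain ⟨σ, hσ⟩ := h0
        rw [Finset.sum_eq_single σ]
        · rw [if_pos hσ]
          unfold sg
          rcases Int.units_eq_one_or (Equiv.Perm.sign σ) with h | h <;> simp [h]
        · intro τ _ hτ
          rw [if_neg]
          intro h1
          apply hτ
          ext i
          have := congrFun (hσ.symm.trans h1) i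
          exact this.symm
        · intro h
          exact absurd (Finset.mem_univ _) h
      · rw [Finset.sum_eq_zero fun τ _ => if_neg fun h => h0 ⟨τ, h⟩]
        norm_num
    · have : FM ((([] : List ℕ) : Multiset ℕ)) β = 0 := by
        by_contra h
        exact hβ (injective_of_ne h)
      rw [this]
      norm_num
  | cons r u ih =>
    intro hu β hs
    by_cases hβ : Function.Injective β
    swap
    · have : FM (((r :: u : List ℕ)) : Multiset ℕ) β = 0 := by
        by_contra h
        exact hβ (injective_of_ne h)
      rw [this]
      norm_num
    rw [List.sum_cons] at hs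
    rw [← Multiset.cons_coe, FM_cons]
    by_cases hex : ∃ j, r ≤ β j ∧ Function.Injective (dn β j r)
    · obtain ⟨j, hj, hj'⟩ := hex
      rw [Finset.sum_eq_single j]
      · rw [if_pos hj]
        apply ih hu.2
        have := sum_dn β j hj
        omega
      · intro k _ hkj
        split_ifs with hk
        · by_contra hne
          exact hkj (hook_unique hβ hs (by have := hu.1; omega) hk hj (injective_of_ne hne) hj')
        · rfl
      · intro h
        exact absurd (Finset.mem_univ _) h
    · rw [Finset.sum_eq_zero]
      · norm_num
      · intro k _
        split_ifs with hk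
        · by_contra hne
          exact hex ⟨k, hk, injective_of_ne hne⟩
        · rfl

end Cfsg.Agent.H549.PBA
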