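import Cfsg.Agent.H614.Val

/-!
# `q`-adic classes of the symmetric groups (helper549, S4884)

If a character of the symmetric group does not vanish at the elements whose cycle lengths are the `q`-adic
expansion of the degree, then its degree is prime to `q` (`val_zero_of_ne`).
-/

set_option autoImplicit false
set_option linter.unusedSectionVars false

namespace Cfsg.Agent.H549.PBA

open Finset Cfsg.Agent.H614

variable {m : ℕ}

theorem injective_of_ne {s : Multiset ℕ} {β : Fin m → ℕ} (h : FM s β ≠ 0) : Function.Injective β := by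
  by_contra hcon
  exact h (Alt.eq_zero_of_not_injective (fun w hw => by omega) (FM_alt s) hcon)

/-- the `r`-weight -/
theorem weight_ge {r : ℕ} (hr : 0 < r) (v : Multiset ℕ) : ∀ (u : Multiset ℕ), (∀ x ∈ u, r ∣ x) → ∀ {β : Fin m → ℕ},
    FM (u + v) β ≠ 0 → u.sum / r + npairs r β ≤ ∑ j, β j / r := by
  intro u
  induction u using Multiset.induction with
  | empty =>
    intro _ β h
    simpa using npairs_le hr (injective_of_ne h)
  | cons x u ih =>
    intro hu β h
    obtain ⟨c, rfl⟩ := hu x (Multiset.mem_cons_self _ _)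
    rw [Multiset.cons_add, FM_cons] at h
    obtain ⟨j, -, hj⟩ := Finset.exists_ne_zero_of_sum_ne_zero h
    by_cases hle : r * c ≤ β j
    · rw [if_pos hle] at hj
      have h1 := ih (fun y hy => hu y (Multiset.mem_cons_of_mem hy)) hj
      rw [npairs_of_mod (dn_mod (dvd_mul_right r c) β j hle)] at h1
      have h2 := sum_div_dn hr β j hle
      rw [Multiset.sum_cons, Nat.mul_add_div hr]
      omega
    · rw [if_neg hle] at hj
      exact absurd rfl hj

section Val

variable {q : ℕ} [hq : Fact q.Prime]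

theorem padic_eq {x b : ℕ} (hx : x ≠ 0) (hb : x < q ^ b) :
    padicValNat q x = ∑ t ∈ Ico 1 b, if q ^ t ∣ x then 1 else 0 := by
  rw [← Finset.card_filter]
  have h1 : (Ico 1 b).filter (fun t => q ^ t ∣ x) = Ico 1 (padicValNat q x + 1) := by
    ext t
    rw [Finset.mem_filter, Finset.mem_Ico, Finset.mem_Ico, padicValNat_dvd_iff_le hx]
    constructor
    · rintro ⟨⟨h1, -⟩, h2⟩
      omega
    · rintro ⟨h1, h2⟩
      refine ⟨⟨h1, ?_⟩, by omega⟩
      have h3 : q ^ t ∣ x := (padicValNat_dvd_iff_le hx).2 (by omega)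
      have h4 := Nat.le_of_dvd (Nat.pos_of_ne_zero hx) h3
      exact (Nat.pow_lt_pow_iff_right hq.out.one_lt).1 (lt_of_le_of_lt h4 hb)
  rw [h1, Nat.card_Ico, Nat.add_sub_cancel]

theorem vd_eq {a c b : ℕ} (hne : a ≠ c) (ha : a < q ^ b) (hc : c < q ^ b) :
    vd q a c = ∑ t ∈ Ico 1 b, if a % q ^ t = c % q ^ t then 1 else 0 := by
  unfold vd
  rw [padic_eq (b := b) (by omega) (by omega)]
  refine Finset.sum_congr rfl fun t _ => if_congr ?_ rfl rfl
  rw [← Int.natCast_dvd, ← neg_sub, dvd_neg]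
  push_cast
  exact (Nat.modEq_iff_dvd (n := q ^ t) (a := a) (b := c)).symm.trans Iff.rfl

theorem sum_vd {β : Fin m → ℕ} (hβ : Function.Injective β) {b : ℕ} (hb : ∀ i, β i < q ^ b) :
    ∑ i, ∑ j, vd q (β i) (β j) = ∑ t ∈ Ico 1 b, 2 * npairs (q ^ t) β := by
  have h1 : ∀ i j, vd q (β i) (β j) + (if i = j then (Ico 1 b).card else 0) =
      ∑ t ∈ Ico 1 b, if β i % q ^ t = β j % q ^ t then 1 else 0 := by
    intro i j
    by_cases hij : i = j
    · subst hij
      rw [vd_self, if_pos rfl, zero_add, Finset.sum_congr rfl fun t _ => if_pos rfl, Finset.sum_const, smul_eq_mul,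
        mul_one]
    · rw [if_neg hij, add_zero]
      exact vd_eq (fun h => hij (hβ h)) (hb i) (hb j)
  have h2 : ∑ i : Fin m, ∑ j : Fin m, (if i = j then (Ico 1 b).card else 0) = m * (Ico 1 b).card := by
    simp
  have h3 : ∑ i, ∑ j, vd q (β i) (β j) + m * (Ico 1 b).card =
      ∑ i, ∑ j, ∑ t ∈ Ico 1 b, if β i % q ^ t = β j % q ^ t then 1 else 0 := by
    rw [← h2, ← Finset.sum_add_distrib]
    refine Finset.sum_congr rfl fun i _ => ?_
    rw [← Finset.sum_add_distrib]
    exact Finset.sum_congr rfl fun j _ => h1 i j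
  have h4 : ∑ i, ∑ j, ∑ t ∈ Ico 1 b, (if β i % q ^ t = β j % q ^ t then 1 else 0) =
      ∑ t ∈ Ico 1 b, (2 * npairs (q ^ t) β + m) := by
    rw [Finset.sum_congr rfl fun i _ => Finset.sum_comm, Finset.sum_comm]
    refine Finset.sum_congr rfl fun t _ => ?_
    rw [two_mul_npairs, Finset.card_filter, Fintype.sum_prod_type]
  rw [h4, Finset.sum_add_distrib, Finset.sum_const, smul_eq_mul, mul_comm m] at h3
  omega

/-- characters of full weights have degree prime to `q` -/
theorem val_zero {n : ℕ} {β : Fin m → ℕ} (hβ : Function.Injective β)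
    (hs : ∑ i, β i = n + ∑ i : Fin m, (i : ℕ)) (h : ∀ t, n / q ^ t + npairs (q ^ t) β ≤ ∑ j, β j / q ^ t) :
    padicValNat q (Int.natAbs (FM (Multiset.replicate n 1) β)) = 0 := by
  have h1 := val_formula (p := q) hβ hs
  obtain ⟨b, hb⟩ : ∃ b, n + ∑ i, β i < b := ⟨_, Nat.lt_succ_self _⟩
  have hbb : b < q ^ b := Nat.lt_pow_self hq.out.one_lt
  have hbi : ∀ i, β i < q ^ b := fun i => by
    have := Finset.single_le_sum (f := β) (fun j _ => Nat.zero_le _) (mem_univ i)
    omega
  have hlog : ∀ x, x < q ^ b → Nat.log q x < b := fun x hx => by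
    rcases Nat.eq_zero_or_pos x with rfl | hx0
    · rw [Nat.log_zero_right]; omega
    · exact Nat.log_lt_of_lt_pow hx0.ne' hx
  have h2 : padicValNat q n.factorial = ∑ t ∈ Ico 1 b, n / q ^ t :=
    padicValNat_factorial (hlog n (by omega))
  have h3 : ∑ i, padicValNat q (β i).factorial = ∑ t ∈ Ico 1 b, ∑ i, β i / q ^ t := by
    rw [Finset.sum_comm]
    exact Finset.sum_congr rfl fun i _ => padicValNat_factorial (hlog _ (hbi i))
  rw [h2, h3, sum_vd hβ hbi, Finset.mul_sum, Finset.mul_sum, ← Finset.sum_add_distrib] at h1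
  have h4 : ∑ t ∈ Ico 1 b, (2 * (n / q ^ t) + 2 * npairs (q ^ t) β) ≤ ∑ t ∈ Ico 1 b, 2 * ∑ i, β i / q ^ t :=
    Finset.sum_le_sum fun t _ => by have := h t; omega
  omega

end Val

/-! ### the `q`-adic cycle type -/

/-- the digits `t, ..., t + k - 1` -/
def dg (q n t k : ℕ) : Multiset ℕ := ∑ i ∈ range k, Multiset.replicate (n / q ^ (t + i) % q) (q ^ (t + i))

theorem mem_dg {q n t k x : ℕ} (h : x ∈ dg q n t k) : ∃ i, x = q ^ (t + i) := by
  unfold dg at h
  rw [Multiset.mem_sum] at h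
  obtain ⟨i, -, hi⟩ := h
  exact ⟨i, Multiset.eq_of_mem_replicate hi⟩

theorem dg_add (q n t k l : ℕ) : dg q n t (k + l) = dg q n t k + dg q n (t + k) l := by
  unfold dg
  rw [Finset.sum_range_add]
  simp only [add_assoc]

theorem sum_dg (q n t k : ℕ) : (dg q n t k).sum + q ^ (t + k) * (n / q ^ (t + k)) = q ^ t * (n / q ^ t) := by
  induction k with
  | zero => simp [dg]
  | succ k ih =>
    rw [dg_add, Multiset.sum_add, ← ih]
    have h1 : (dg q n (t + k) 1).sum = n / q ^ (t + k) % q * q ^ (t + k) := by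
      simp [dg, Multiset.sum_replicate]
    have h2 : n / q ^ (t + (k + 1)) = n / q ^ (t + k) / q := by
      rw [← add_assoc, pow_succ, Nat.div_div_eq_div_mul]
    rw [h1, h2, ← add_assoc t k 1, pow_succ]
    have h3 := Nat.mod_add_div (n / q ^ (t + k)) q
    calc (dg q n t k).sum + n / q ^ (t + k) % q * q ^ (t + k) + q ^ (t + k) * q * (n / q ^ (t + k) / q)
        = (dg q n t k).sum + q ^ (t + k) * (n / q ^ (t + k) % q + q * (n / q ^ (t + k) / q)) := by ring
      _ = _ := by rw [h3]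

/-- if the value at the `q`-adic cycle type is not zero, then the degree is prime to `q` -/
theorem val_zero_of_ne {q : ℕ} [hq : Fact q.Prime] {n L : ℕ} (hL : n < q ^ L) {β : Fin m → ℕ}
    (hs : ∑ i, β i = n + ∑ i : Fin m, (i : ℕ)) (h : FM (dg q n 0 L) β ≠ 0) :
    padicValNat q (Int.natAbs (FM (Multiset.replicate n 1) β)) = 0 := by
  have hinj := injective_of_ne h
  refine val_zero hinj hs fun t => ?_
  have hq0 : 0 < q ^ t := Nat.pow_pos hq.out.pos
  rcases Nat.lt_or_ge L t with ht | ht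
  · have h1 : n / q ^ t = 0 := Nat.div_eq_of_lt (lt_of_lt_of_le hL (Nat.pow_le_pow_right hq.out.pos ht.le))
    rw [h1, zero_add]
    exact npairs_le hq0 hinj
  · obtain ⟨k, rfl⟩ := Nat.exists_eq_add_of_le ht
    have h1 : dg q n 0 (t + k) = dg q n t k + dg q n 0 t := by
      rw [dg_add, zero_add, add_comm]
    rw [h1] at h
    have h2 := weight_ge hq0 _ _ (fun x hx => by
      obtain ⟨i, rfl⟩ := mem_dg hx
      exact pow_dvd_pow q (Nat.le_add_right t i)) h
    have h3 := sum_dg q n t k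
    rw [Nat.div_eq_of_lt hL, mul_zero, add_zero] at h3
    rwa [h3, Nat.mul_div_cancel_left _ hq0] at h2

end Cfsg.Agent.H549.PBA
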